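import Cfsg.Agent.SolvLin.DL6
import Cfsg.Agent.SolvLin.Main2
import Cfsg.Agent.PLocal.Quadratic

/-!
# Odd order: a vector with abelian stabilizer
-/

set_option autoImplicit false
set_option linter.style.haveILetI false
open scoped commutatorElement

namespace Cfsg.Agent.SolvLin

open MulAction

universe u v

theorem quad_irr {G V : Type*} [Group G] [Finite G] [AddCommGroup V] [Finite V]
    [DistribMulAction G V] (T : Sylow 2 G) (hT : IsMulCommutative T) (hirr : Irr G V) {r : ℕ}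
    [Fact r.Prime] [Module (ZMod r) V] (h2 : r ≠ 2) {g : G}
    (hg : ∀ u : V, g • (g • u - u) = g • u - u) (u : V) : g • u = u := by
  let ρ : G →* Module.End (ZMod r) V :=
    { toFun := fun g => (DistribSMul.toAddMonoidHom V g).toZModLinearMap r
      map_one' := LinearMap.ext (one_smul G)
      map_mul' := fun a b => LinearMap.ext fun u : V => mul_smul a b u }
  haveI : FiniteDimensional (ZMod r) V := Module.Finite.of_finite
  have h1 := PLocal.mem_pCore_of_quadratic_of_sylow_two_comm h2 T hT ρ ρ.ker le_rfl g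
    (LinearMap.ext fun u => sub_eq_zero.2 (hg u))
  let P := (pCore r (G ⧸ ρ.ker)).comap (QuotientGroup.mk' ρ.ker)
  have hP : IsPGroup r (P.map (toPermHom G V)) := by
    rintro ⟨_, x, hx, rfl⟩
    obtain ⟨n, hn⟩ := Grp.pCore_isPGroup r _ ⟨_, hx⟩
    have : x ^ r ^ n ∈ ρ.ker := (QuotientGroup.eq_one_iff _).1 (congrArg Subtype.val hn)
    exact ⟨n, Subtype.ext ((map_pow _ x _).symm.trans
      (Equiv.ext fun u => show ρ (x ^ r ^ n) u = u from DFunLike.congr_fun this u))⟩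
  haveI := hirr.1
  obtain ⟨w, hw⟩ := exists_ne (0 : V)
  obtain ⟨b, hb, hb0⟩ := hP.exists_fixed_point_of_prime_dvd_card_of_fixed_point V
    (addOrderOf_eq_prime (ZModModule.char_nsmul_eq_zero r w) hw ▸ addOrderOf_dvd_natCard w) (a := 0)
    (by rintro ⟨_, x, -, rfl⟩; exact smul_zero x)
  let F : AddSubgroup V := ⨅ x : P, fx V (x : G)
  have hF : ∀ u, u ∈ F ↔ ∀ x ∈ P, x • u = u := fun u =>
    AddSubgroup.mem_iInf.trans Subtype.forall
  have h3 := (hirr.2 F fun a u hu => (hF _).2 fun x hx => by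
    have := (hF u).1 hu _ ((inferInstance : P.Normal).conj_mem' x hx a)
    rwa [mul_smul, mul_smul, inv_smul_eq_iff] at this).resolve_left fun h => by
      have : b ∈ F := (hF b).2 fun x hx => hb ⟨_, x, hx, rfl⟩
      exact hb0 (AddSubgroup.mem_bot.1 (h ▸ this)).symm
  exact (hF u).1 (h3 ▸ AddSubgroup.mem_top u) g h1

theorem quad_cr {G V : Type*} [Group G] [Finite G] [AddCommGroup V] [Finite V]
    [DistribMulAction G V] (T : Sylow 2 G) (hT : IsMulCommutative T) (hcr : CR G V) {r : ℕ}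
    (hr : r.Prime) (h2 : r ≠ 2) {U : AddSubgroup V} (hU : Inv G U) (hV : ∀ u ∈ U, r • u = 0) {g : G}
    (hg : ∀ u ∈ U, g • (g • u - u) = g • u - u) : ∀ u ∈ U, g • u = u := by
  obtain ⟨-, -, h⟩ := cr_red hcr (fun _ => Subgroup.zpowers g) (fun _ _ _ _ _ _ _ _ _ => by simp) 0
    U hU fun U1 hU1 hle hirr => by
      letI := subAct U1 hU1
      haveI := Fact.mk hr
      haveI : Module (ZMod r) U1 := AddCommGroup.zmodModule fun u => Subtype.ext (hV u (hle u.2))
      exact ⟨0, zero_mem _, fun x hx u hu => (Subgroup.zpowers_le (H := stabilizer G u)).2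
        (congrArg Subtype.val (quad_irr T hT hirr h2
          (fun u => Subtype.ext (hg u (hle u.2))) ⟨u, hu⟩)) hx⟩
  exact h g (Subgroup.mem_zpowers g)

/-- singletons and initial segments -/
def SP (m : ℕ) : Finset (Finset (Fin m)) :=
  insert ∅ (Finset.univ.image singleton ∪ Finset.univ.image Finset.Iic)

theorem mem_SP {m : ℕ} {A : Finset (Fin m)} :
    A ∈ SP m ↔ A = ∅ ∨ (∃ k, {k} = A) ∨ ∃ k, Finset.Iic k = A := by simp [SP]

theorem des_SP (m : ℕ) : Des (SP m) m :=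
  ⟨mem_SP.2 (Or.inl rfl), fun k _ => mem_SP.2 (Or.inr (Or.inl ⟨k, rfl⟩)), fun _ _ k _ => k.2⟩

theorem cnt_SP {m : ℕ} (i : Fin m) :
    ((SP m).filter (i ∈ ·)).card = if i.1 = 0 then m else m + 1 - i := by
  have h1 : (SP m).filter (i ∈ ·) = insert {i} ((Finset.Ici i).image Finset.Iic) := by
    ext A
    simp only [Finset.mem_filter, mem_SP, Finset.mem_insert, Finset.mem_image, Finset.mem_Ici]
    constructor
    · rintro ⟨rfl | ⟨k, rfl⟩ | ⟨k, rfl⟩, h⟩
      · simp at h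
      · exact Or.inl (by rw [Finset.mem_singleton.1 h])
      · exact Or.inr ⟨k, Finset.mem_Iic.1 h, rfl⟩
    · rintro (rfl | ⟨k, hk, rfl⟩)
      · simp
      · simp [hk]
  have h2 : {i} ∈ (Finset.Ici i).image Finset.Iic ↔ i.1 = 0 := by
    simp only [Finset.mem_image, Finset.mem_Ici]
    refine ⟨fun ⟨k, _, hk⟩ => ?_, fun h => ⟨i, le_rfl, ?_⟩⟩
    · have : (⟨0, i.pos⟩ : Fin m) ∈ Finset.Iic k := by simp [Fin.le_def]
      rw [hk, Finset.mem_singleton] at this
      rw [← this]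
    · ext l
      simp [Fin.le_def, Fin.ext_iff, h]
  rw [h1, Finset.card_insert_eq_ite, Finset.card_image_of_injective _ (fun a b h => Set.Iic_injective
    (by simpa using congrArg (fun s : Finset _ => (s : Set (Fin m))) h)),
    Fin.card_Ici]
  simp only [h2]
  have := i.2
  split_ifs <;> omega

theorem cnt_SP' {m : ℕ} (i : Fin m) : m ≤ ((SP m).filter (i ∉ ·)).card := by
  have := Finset.card_le_card_of_injOn (s := Finset.univ) (t := (SP m).filter (i ∉ ·))
    (fun k : Fin m => ({k} : Finset (Fin m)).erase i) (fun k _ => by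
      by_cases h : k = i <;> simp [h, mem_SP, Finset.erase_eq_of_notMem, Ne.symm])
    (fun k _ l _ h => by
      by_contra hkl
      have h1 := Finset.ext_iff.1 h k
      have h2 := Finset.ext_iff.1 h l
      simp [hkl, Ne.symm hkl] at h1 h2
      exact hkl (h1.trans h2.symm))
  simpa using this

theorem two_val {C : Type*} [CommGroup C] {m : ℕ} {ζ c : C} {β : Fin m → C} (h2 : ζ * ζ ≠ 1)
    (h : ∀ B ∈ SP m, c * ∏ j ∈ B, β j = 1 ∨ c * ∏ j ∈ B, β j = ζ) {j l : Fin m} (hj : β j ≠ 1)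
    (hl : β l ≠ 1) : j = l := by
  by_contra hne
  obtain ⟨b, ⟨hb, a, hab, ha⟩, hmin⟩ := WellFounded.has_min (wellFounded_lt (α := Fin m))
    {b | β b ≠ 1 ∧ ∃ a < b, β a ≠ 1} (by
      rcases lt_or_gt_of_ne hne with e | e
      exacts [⟨l, hl, j, e, hj⟩, ⟨j, hj, l, e, hl⟩])
  have h1 : ∏ x ∈ Finset.Iic b, β x = β a * β b := by
    refine Finset.prod_eq_mul_of_mem a b (by simpa using hab.le) (by simp) hab.ne fun x hx e => ?_
    by_contra hx'
    rcases lt_or_gt_of_ne e.1 with e' | e'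
    · exact hmin a ⟨ha, x, e', hx'⟩ hab
    · exact hmin x ⟨hx', a, e', ha⟩ (lt_of_le_of_ne (Finset.mem_Iic.1 hx) e.2)
  have e0 := h ∅ (des_SP m).empty
  have e1 := h {a} ((des_SP m).single a a.2)
  have e2 := h {b} ((des_SP m).single b b.2)
  have e3 := h _ (mem_SP.2 (Or.inr (Or.inr ⟨b, rfl⟩)))
  simp only [Finset.prod_empty, Finset.prod_singleton, mul_one, h1] at e0 e1 e2 e3
  rcases e0 with rfl | rfl
  · simp only [one_mul, ha, hb, false_or] at e1 e2 e3
    rw [e1, e2] at e3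
    exact hb (e2.trans (mul_eq_left.1 (e3.resolve_left h2)))
  · simp only [mul_eq_left, ha, hb, or_false] at e1 e2
    rw [← mul_assoc, e1, one_mul] at e3
    exact h2 (by rwa [e3.resolve_left hb] at e2)

theorem cube_fix {C : Type*} [CommGroup C] {m : ℕ} {ζ : Fin m → C} (h2 : ∀ i, ζ i * ζ i ≠ 1)
    {π : Finset (Fin m) → Finset (Fin m)} (hπ : ∀ A ∈ SP m, π A ∈ SP m) {k : ℕ} (hk : Odd k)
    (hk' : ∀ A ∈ SP m, π^[k] A = A)
    (h : ∀ i, ∃ (c : C) (β : Fin m → C), ∀ B ∈ SP m,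
      c * ∏ j ∈ B, β j = if i ∈ π B then ζ i else 1) : ∀ A ∈ SP m, π A = A := by
  obtain ⟨k, rfl⟩ := hk
  have hn : ∀ n, ∀ A ∈ SP m, π^[n] A ∈ SP m := fun n => Set.MapsTo.iterate hπ n
  have hs : ∀ A ∈ SP m, π (π^[2 * k] A) = A := fun A hA =>
    (Function.iterate_succ_apply' π _ A).symm.trans (hk' A hA)
  have h3 : ∀ i, ∃ j, ∃ ε : Prop, ∀ B ∈ SP m, (i ∈ π B ↔ (j ∈ B ↔ ε)) := by
    intro i
    obtain ⟨c, β, h⟩ := h i
    have h1 : ζ i ≠ 1 := fun e => h2 i (by simp [e])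
    obtain ⟨j, hj⟩ : ∃ j, β j ≠ 1 := by
      by_contra! e
      have a1 := h _ (hn (2 * k) _ (des_SP m).empty)
      have a2 := h _ (hn (2 * k) _ ((des_SP m).single i i.2))
      rw [hs _ (des_SP m).empty] at a1
      rw [hs _ ((des_SP m).single i i.2)] at a2
      simp only [e, Finset.prod_const_one, Finset.notMem_empty, Finset.mem_singleton, if_true,
        if_false] at a1 a2
      exact h1 (a2.symm.trans a1)
    have h4 : ∀ B : Finset (Fin m), ∏ l ∈ B, β l = if j ∈ B then β j else 1 := fun B => by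
      rw [← Finset.prod_ite_eq]
      refine Finset.prod_congr rfl fun l _ => ?_
      split_ifs with e
      · rfl
      · by_contra e'
        exact e (two_val (h2 i) (fun B hB => by rw [h B hB]; split_ifs <;> simp) hj e')
    have a1 := h _ (des_SP m).empty
    have a2 := h _ ((des_SP m).single j j.2)
    refine ⟨j, c = 1, fun B hB => ?_⟩
    have a3 := h B hB
    rw [h4] at a1 a2 a3
    split_ifs at a1 a2 a3 <;> simp_all
  choose σ ε h3 using h3
  have h4 : ∀ n i, ∃ e : Prop, ∀ B ∈ SP m, (i ∈ π^[n] B ↔ (σ^[n] i ∈ B ↔ e)) := by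
    intro n
    induction n with
    | zero => exact fun i => ⟨True, by simp⟩
    | succ n ih =>
      intro i
      obtain ⟨e, he⟩ := ih (σ i)
      refine ⟨e ↔ ε i, fun B hB => ?_⟩
      rw [Function.iterate_succ_apply', h3 i _ (hn n B hB), he B hB, Function.iterate_succ_apply]
      tauto
  have h5 : ∀ i, σ^[2 * k + 1] i = i := by
    intro i
    obtain ⟨e, he⟩ := h4 (2 * k + 1) i
    have a1 := he _ (des_SP m).empty
    have a2 := he _ ((des_SP m).single i i.2)
    rw [hk' _ (des_SP m).empty] at a1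
    rw [hk' _ ((des_SP m).single i i.2)] at a2
    simp_all
  have h6 : ∀ (P Q : Finset (Fin m) → Prop) [DecidablePred P] [DecidablePred Q],
      (∀ B ∈ SP m, P (π B) ↔ Q B) → ((SP m).filter Q).card = ((SP m).filter P).card := by
    intro P Q _ _ hPQ
    refine Finset.card_nbij' π π^[2 * k] (fun B hB => ?_) (fun B hB => ?_) (fun B hB => ?_)
      fun B hB => ?_ <;> simp only [Finset.coe_filter, Set.mem_ofPred_eq] at hB ⊢
    · exact ⟨hπ B hB.1, (hPQ B hB.1).2 hB.2⟩
    · exact ⟨hn _ B hB.1, (hPQ _ (hn _ B hB.1)).1 (by rw [hs B hB.1]; exact hB.2)⟩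
    · exact hk' B hB.1
    · exact hs B hB.1
  have h7 : ∀ i, σ i = i ∨ (i.1 ≤ 1 ∧ (σ i).1 ≤ 1) := by
    intro i
    have a1 := cnt_SP i
    have a2 := cnt_SP (σ i)
    have a3 := cnt_SP' i
    have a4 := cnt_SP' (σ i)
    have := i.2
    have := (σ i).2
    rw [Fin.ext_iff]
    by_cases e : ε i
    · have := h6 (i ∈ ·) (σ i ∈ ·) fun B hB => by simp [h3 i B hB, e]
      split_ifs at a1 a2 <;> omega
    · have := h6 (i ∈ ·) (σ i ∉ ·) fun B hB => by simp [h3 i B hB, e]
      have := h6 (i ∉ ·) (σ i ∈ ·) fun B hB => by simp [h3 i B hB, e]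
      split_ifs at a1 a2 <;> omega
  have hc : ∀ {α : Type} (f : α → α) (x : α), f (f x) = x → f^[2 * k + 1] x = x → f x = x := by
    intro α f x a1 a2
    rwa [Function.iterate_succ_apply', Function.iterate_mul,
      Function.iterate_fixed (f := f^[2]) a1] at a2
  have h8 : ∀ i, σ i = i := by
    intro i
    refine hc σ i ?_ (h5 i)
    have hinj : σ (σ i) = σ i → σ i = i := fun e => by
      rw [← h5 i, Function.iterate_succ_apply, Function.iterate_fixed e, e]
    have a1 := h7 i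
    have a2 := h7 (σ i)
    by_cases e : σ i = i
    · rw [e, e]
    · simp only [Fin.ext_iff] at *
      omega
  intro A hA
  refine hc π A (Finset.ext fun i => ?_) (hk' A hA)
  rw [h3 i _ (hπ A hA), h8, h3 i A hA, h8]
  tauto

section
variable {K V Γ M : Type*} [Field K] [AddCommGroup V] [Module K V] [Group Γ]
  [DistribMulAction Γ V] [Group M] [DistribMulAction M V]

namespace Heis.PF
variable {H : Heis K V Γ M} {v0 : V} {hv0 : v0 ≠ 0} {r m : ℕ} (F : H.PF hv0 r m) [Finite K]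
  [Finite M] {S : Finset (Finset (Fin m))} {w v : V} (hw : ∀ x ∈ H.Dr hv0 r, x • w = w)
  (hs : v = ∑ A ∈ S, F.a A • w) (hv : v ≠ 0) (hmax : IsMaxV M v0) (hr : r ≠ 2)
include hw hs hv hmax hr

theorem not_dep_three (h2 : (2 : K) ≠ 0) (h3 : r = 3) (h0 : ∅ ∈ S) {z : M} (hz : z ^ r = 1)
    {B : Finset (Fin m)} (hB : B ∈ S) (h : F.cx z = F.pt B) (h1 : F.pt B ≠ 1) : ¬ Dep K z v := by
  rintro ⟨a0, a1, a2, hne, hd⟩
  have hw0 : w ≠ 0 := by simpa [F.a_empty] using F.y_ne hs hv ∅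
  have t3 : F.pt B * F.pt B * F.pt B = 1 := by
    rw [← pow_three', ← h3, ← h, ← map_pow, hz, map_one]
  have key : ∀ C, F.pt C ≠ F.pt B * F.pt B := fun C => by
    rw [← sq]
    exact F.pt_ne_pow h1 (n := 1) (by rw [h3]; decide) (Nat.coprime_one_right r) C
  have hx : (z⁻¹ * F.a B) ^ r = 1 :=
    H.mul_pow_odd (F.prime.odd_of_ne_two hr) (by rw [inv_pow, hz, inv_one]) (F.a_one hr B)
  obtain ⟨l, hl⟩ := Cmp.scal F (F.mem_sup_odd hmax hr (hx ▸ one_mem _)
    (by rw [map_mul, map_inv, h, pt, inv_mul_cancel])) 1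
  have hl1 := hl w fun i => by simp [hw _ (F.hd i)]
  have hl3 : (l : K) ^ 3 = 1 := smul_cancel hw0 (by
    generalize z⁻¹ * F.a B = x at hx hl1
    rw [h3, pow_three] at hx
    rw [one_smul, pow_three, mul_smul, mul_smul, ← hl1, ← H.lin, ← hl1, ← H.lin, ← H.lin, ← hl1,
      ← mul_smul, ← mul_smul, mul_assoc, hx, one_smul])
  rw [mul_smul, inv_smul_eq_iff, H.lin] at hl1
  have e0 := congrArg (F.P 1) hd
  have e1 := congrArg (F.P (F.pt B)) hd
  have e2 := congrArg (F.P (F.pt B * F.pt B)) hd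
  simp only [map_add, map_smul, map_zero, hs] at e0 e1 e2
  rw [F.P_eq hw hB (x := z * z) (by rw [map_mul, h, t3]), F.P_zero hw (x := z) fun C _ e => key C
    (by rw [h, ← t3, mul_assoc, mul_right_inj] at e; exact e), ← F.pt_empty, F.P_eq' hw h0] at e0
  rw [F.P_eq' hw hB, F.P_eq hw h0 (x := z) (by rw [h, pt_empty, mul_one]),
    F.P_zero hw (x := z * z) fun C _ e => key C (by
      rw [map_mul, h, mul_assoc, mul_eq_left, ← t3, mul_assoc, mul_right_inj] at e; exact e)] at e1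
  rw [F.P_eq hw hB (x := z) (by rw [h]), F.P_eq hw h0 (x := z * z) (by simp [h, pt_empty]),
    ← one_smul M (∑ A ∈ S, _), F.P_zero hw (x := 1) fun C _ e => key C (by simpa using e)] at e2
  rw [h3, pow_three'] at hz
  simp only [F.a_empty, one_smul, hl1, H.lin, smul_zero, add_zero, zero_add, ← mul_smul, hz,
    ← add_smul, smul_eq_zero, hw0, act_ne_zero _ hw0, or_false] at e0 e1 e2
  have f2 : a2 = 0 := (mul_eq_zero.1 (show (2 : K) * a2 = 0 by
    linear_combination e2 - l * e1 + l ^ 2 * e0 - a2 * hl3)).resolve_left h2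
  have f0 : a0 = 0 := by simpa [f2] using e0
  exact hne ⟨f0, by simpa [f0] using e1, f2⟩

theorem rec_odd (h2 : (2 : K) ≠ 0) (h0 : ∅ ∈ S) : F.Rec v := by
  by_cases h3 : r = 3
  swap
  · exact F.rec_gap hw hs hv (F.gap_five hr h3 h0)
  intro z hz hd
  by_contra h1
  have t3 : F.cx z * F.cx z * F.cx z = 1 := by rw [← pow_three', ← h3, ← map_pow, hz, map_one]
  by_cases ha : ∃ B ∈ S, F.cx z * F.cx z * F.pt B = 1
  · obtain ⟨B, hB, ha⟩ := ha
    have := mul_left_cancel (t3.trans ha.symm)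
    exact F.not_dep_three hw hs hv hmax hr h2 h3 h0 hz hB this (this ▸ h1) hd
  by_cases hb : ∃ B ∈ S, F.cx z * F.pt B = 1
  · obtain ⟨B, hB, hb⟩ := hb
    obtain ⟨a0, a1, a2, hne, hd⟩ := hd
    refine F.not_dep_three hw hs hv hmax hr h2 h3 h0 (z := z * z) (by rw [← sq, pow_right_comm, hz,
      one_pow]) hB (mul_left_cancel (a := F.cx z) (by rw [hb, map_mul, ← mul_assoc, t3]))
      (fun e => h1 (by simpa [e] using hb)) ⟨a0, a2, a1, by tauto, ?_⟩
    rw [h3, pow_three'] at hz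
    rw [← mul_assoc, hz, one_mul, add_right_comm, hd]
  exact F.not_dep hw hs hv h0 (fun B hB => ⟨fun e => hb ⟨B, hB, e.trans F.pt_empty⟩,
    fun e => ha ⟨B, hB, e.trans F.pt_empty⟩⟩) hd

theorem rt_odd (h2 : (2 : K) ≠ 0) (hS : S = SP m) {g : Γ} (hA : g ∈ H.A) (hg : g • v = v) {k : ℕ}
    (hk : Odd k) (hgk : ∀ u : V, g ^ k • u = u) : H.RT g r (H.Dr hv0 r) := by
  subst hS
  have hrec := F.rec_odd hw hs hv hmax hr h2 (des_SP m).empty
  refine F.rt_of_fix hmax hr hA (F.fx_of_full hw hs hv hmax hr (des_SP m) hA ?_)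
  choose! π hπ hπ' using fun A hA => F.perm hw hs hv hmax hr hrec hg (A := A) hA
  have h1 : ∀ n, ∀ A ∈ SP m, g ^ n • F.a A • w = F.a (π^[n] A) • w := by
    intro n A hA
    induction n with
    | zero => simp
    | succ n ih => rw [pow_succ', mul_smul, ih, hπ' _ (Set.MapsTo.iterate hπ n hA),
        Function.iterate_succ_apply']
  have h3 := cube_fix (ζ := F.ζ) (fun i e => F.ζ_ne i (eq_one_of_coprime
    ((Nat.coprime_primes F.prime Nat.prime_two).2 hr) (F.ζ_pow i) ((sq _).trans e))) hπ hk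
    (fun A hA => F.pt_inj (funext fun i => Units.ext (smul_cancel (F.y_ne hs hv A) (by
      rw [← F.cmp_a hw A i, ← hgk (F.a A • w), h1 k A hA, F.cmp_a hw _ i])))) fun i => by
    obtain ⟨_, ⟨c, rfl⟩, e, he, h⟩ := Subgroup.mem_sup_of_normal_left.1
      (F.norm_D hw hs hmax hr hrec (inv_fix hg) i)
    refine ⟨c, fun j => H.b e (F.μ j), fun B hB => Units.ext (smul_cancel (F.y_ne hs hv B) ?_)⟩
    rw [← F.b_a, ← F.pt_apply, Units.val_mul, mul_smul, ← H.comp_smul hw _ e he, ← H.s_smul,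
      ← mul_smul, h]
    refine smul_left_cancel g ?_
    rw [H.κ_smul, H.κ_inv, H.lin_of_A hA, hπ' B hB, F.cmp_a hw]
  intro A hA
  rw [hπ' A hA, h3 A hA]

end Heis.PF

end

theorem Heis.sm_one {K V Γ : Type*} [Field K] [AddCommGroup V] [Module K V] [Group Γ]
    [DistribMulAction Γ V] {M : Subgroup Γ} (H : Heis K V Γ M) [Finite K] [Finite Γ]
    (hf : ∀ g : Γ, (∀ v : V, g • v = v) → g = 1) (h2 : (2 : K) ≠ 0) {k : ℕ} (hk : Odd k)
    (hκ : ∀ g, H.κ g ^ k = 1) : ∃ v : V, Sm Γ v 1 := by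
  haveI := H.nontriv
  obtain ⟨v0, hmax⟩ := exists_isMaxV (M := M) (V := V)
  choose m hm using fun r : Nat.Primes => H.exists_PF hmax.1 r.2
  let F := fun r => (hm r).some
  obtain ⟨v, hv, hF⟩ := H.exists_form_all hmax.1 F (fun r => SP (m r)) fun r => (des_SP _).empty
  have hZ : ∀ x : M, x ^ 2 ∈ H.s.range → x ∈ H.s.range := fun x hx =>
    mem_of_coprime (Nat.coprime_two_left.2 hk) hx (H.pow_mem_of_κ hκ x)
  obtain ⟨T⟩ : Nonempty (Sylow 2 Γ) := inferInstance
  have hT : IsMulCommutative T := ⟨⟨fun a b => Subtype.ext (commutatorElement_eq_one_iff_mul_comm.1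
    (hf _ (mem_trv.1 (H.scal (L := T) (t := 0) (fun g hg x => by
      obtain ⟨n, hn⟩ := T.isPGroup' ⟨g, hg⟩
      rw [eq_one_of_coprime ((Nat.coprime_two_right.2 hk).pow_right n) (hκ g)
        (by rw [← map_pow, show g ^ 2 ^ n = 1 from congrArg Subtype.val hn, map_one])]
      rfl) (Subgroup.commutator_mem_commutator a.2 b.2)))))⟩⟩
  refine ⟨v, fun g hg u => ?_⟩
  have hA := H.mem_A _ le_rfl hg
  have hgv : g • v = v := ds_le _ _ hg
  have hgk : ∀ u : V, g ^ k • u = u := by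
    obtain ⟨c, hc⟩ := H.selfc (g ^ k) fun x => by rw [map_pow, hκ]; rfl
    have : g ^ k • v = v := pow_mem (show g ∈ stabilizer Γ v from hgv) k
    intro u
    rw [hc, smul_cancel hv ((hc v).symm.trans (this.trans (one_smul K v).symm)), one_smul]
  obtain ⟨n, hn⟩ := H.inner' hA fun w => by
    obtain ⟨x, rfl⟩ := H.wm_surj w
    refine H.gen_primes (P := H.msub (fx H.W g)) (fun r hr x hx => ?_) x
    by_cases e : r = 2
    · exact H.mem_msub.2 (H.wm_eq_zero.2 (hZ x (e ▸ hx)) ▸ zero_mem _)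
    obtain ⟨w, hw, hs⟩ := hF ⟨r, hr⟩
    have h1 := (F ⟨r, hr⟩).rt_odd hw hs hv hmax e h2 rfl hA hgv hk hgk
    refine quad_cr T hT H.W_cr hr e (H.inv_ker r) (fun _ hu => hu) (fun u hu => ?_) _
      (H.wm_eq_zero.2 hx)
    obtain ⟨y, rfl⟩ := H.wm_surj u
    rw [H.wm_smul, sub_eq_neg_add, ← H.wm_inv, ← H.wm_mul, H.wm_smul,
      h1.fix H hA (h1.1 y (H.wm_eq_zero.1 hu))]
  rw [hn]
  by_cases h1 : orderOf n = 1
  · rw [orderOf_eq_one_iff.1 h1, one_smul]
  obtain ⟨r, hr, c, hc⟩ := Nat.exists_prime_and_dvd h1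
  have h3 : n ^ c ∈ H.Dr hv r := ⟨pow_mem (show n ∈ stabilizer M v from (hn v).symm.trans hgv) c,
    by rw [← pow_mul, mul_comm, ← hc, pow_orderOf_eq_one]⟩
  have h4 : n ^ c = 1 := by
    by_cases e : r = 2
    · exact H.eq_one_of_Z_fix hv (hZ _ (e ▸ h3.2 ▸ one_mem _)) h3.1
    obtain ⟨w, hw, hs⟩ := hF ⟨r, hr⟩
    rw [(F ⟨r, hr⟩).eig hw hs hv hmax (des_SP _) ((F _).nt_odd e (des_SP _).empty)] at h3
    exact (F ⟨r, hr⟩).nd h3.1 fun k => h3.2 k k.2
  have h5 := orderOf_pos n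
  have h6 := Nat.le_of_dvd (by nlinarith) (orderOf_dvd_of_pow_eq_one h4)
  nlinarith [hr.one_lt]

theorem irr_sm_one (n : ℕ) : ∀ (G : Type u) (V : Type v) [Group G] [Finite G] [AddCommGroup V]
    [Finite V] [DistribMulAction G V], Nat.card V = n → Group.IsSolvable G → Odd (Nat.card G) →
      (∀ v : V, v + v = 0 → v = 0) → Irr G V → ∃ v : V, Sm G v 1 := by
  induction n using Nat.strong_induction_on with | _ n ih => ?_
  intro G V _ _ _ _ _ hn hG ho hV hirr
  rcases imprim_or_setup hG hirr with ⟨⟨I⟩⟩ | ⟨K, _, _, _, Γ, _, _, _, S, f, hf, hk⟩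
  · letI := subAct I.e.range I.inv
    haveI := (I.irr hirr).1
    haveI := Fintype.ofFinite (G ⧸ I.H)
    have ho' : Odd (Nat.card I.H) := ho.of_dvd_nat (Subgroup.card_subgroup_dvd_card _)
    have hV' : ∀ u : I.e.range, u + u = 0 → u = 0 := fun u hu =>
      Subtype.ext (hV u (congrArg Subtype.val hu))
    obtain ⟨w, hw0, hw⟩ : ∃ w : I.e.range, w ≠ 0 ∧ Sm I.H w 1 := by
      obtain ⟨w, hw⟩ := ih _ (hn ▸ I.card_range_lt) _ _ rfl inferInstance ho' hV' (I.irr hirr)
      by_cases h : w = 0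
      · obtain ⟨w', hw'⟩ := exists_ne (0 : I.e.range)
        exact ⟨w', hw', fun g hg => hw g (ds_mono (fun x _ => h ▸ smul_zero x) 1 hg)⟩
      · exact ⟨w, h, hw⟩
    have key : ∀ (u : I.e.range) (g : I.H), u ≠ 0 → g • u ≠ -u := fun u g hu e => by
      have h1 : g ∈ stabilizer I.H u := mem_of_coprime (Nat.coprime_two_left.2 ho')
        (show g ^ 2 • u = u by rw [sq, mul_smul, e, smul_neg, e, neg_neg])
        (by rw [pow_card_eq_one']; exact one_mem _)
      exact hu (hV' u (eq_neg_iff_add_eq_zero.1 (h1.symm.trans e)))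
    obtain ⟨col, h1, h2⟩ := colour_two hG I.coatom ho fun S N _ _ _ _ _ h1 h2 _ h4 =>
      irr_base2_odd h1 (ho.of_dvd_nat h2) h4
    have h3 : ∀ x : G, col (x : G ⧸ I.H).out = col x := fun x => by
      obtain ⟨k, hk⟩ := QuotientGroup.mk_out_eq_mul I.H x
      rw [hk, h1 _ _ k.2]
    obtain ⟨t, ht, -⟩ := I.step hirr (d := fun _ => 1) (d' := fun _ : Fin 1 => 1)
      ⟨![w, -w], fun a => by
        fin_cases a
        exacts [hw, fun g hg => hw g (ds_mono (fun x hx => neg_injective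
          ((smul_neg x w).symm.trans hx)) 1 hg)], fun a b g hg => by
        fin_cases a <;> fin_cases b
        exacts [rfl, absurd hg (key w g hw0),
          absurd (hg.trans (neg_neg w).symm) (key _ g (neg_ne_zero.2 hw0)), rfl]⟩
      (fun _ ω => col ω.out) (fun _ L hL ω => ⟨0, le_rfl, fun g hg => by
        have := h2 g fun x => by rw [← h3, ← h3 x]; exact hL g hg x
        rw [Subgroup.normalCore_eq_ker] at this
        exact DFunLike.congr_fun this ω⟩) fun _ _ _ _ => Subsingleton.elim _ _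
    exact ⟨t 0, ht 0⟩
  · obtain ⟨M, H, hH⟩ := S.exists_heis
    haveI := hirr.1
    obtain ⟨w, hw⟩ := exists_ne (0 : V)
    obtain ⟨v, hv⟩ := H.sm_one S.faithful (fun e => hw (hV w (by
      rw [← two_smul K, e, zero_smul]))) ho fun g => by rw [← map_pow, hH _ (hk g)]
    exact ⟨v, hv.of_hom f hf⟩

theorem cr_sm_one {G V : Type*} [Group G] [Finite G] [AddCommGroup V] [Finite V]
    [DistribMulAction G V] (hG : Group.IsSolvable G) (ho : Odd (Nat.card G))
    (hV : ∀ v : V, v + v = 0 → v = 0) (hcr : CR G V) : ∃ v : V, Sm G v 1 :=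
  sm_of_cr hcr fun U hU hirr => letI := subAct U hU
    irr_sm_one _ G U rfl hG ho (fun u hu => Subtype.ext (hV u (congrArg Subtype.val hu))) hirr

end Cfsg.Agent.SolvLin
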