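import Cfsg.Agent.SolvLin.DL4

/-!
# Recovering the frame from a vector
-/

set_option autoImplicit false
set_option linter.style.haveILetI false
open scoped commutatorElement

namespace Cfsg.Agent.SolvLin

open MulAction

variable {K V Γ M : Type*} [Field K] [AddCommGroup V] [Module K V] [Group Γ]
  [DistribMulAction Γ V] [Group M] [DistribMulAction M V]

/-- a set of vertices of the cube spanning the first `j` coordinates -/
structure Des {m : ℕ} (S : Finset (Finset (Fin m))) (j : ℕ) : Prop where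
  empty : ∅ ∈ S
  single : ∀ k : Fin m, k.1 < j → {k} ∈ S
  sub : ∀ A ∈ S, ∀ k ∈ A, k.1 < j

/-- the simplex -/
def S0 (m j : ℕ) : Finset (Finset (Fin m)) :=
  insert ∅ ((Finset.univ.filter fun k : Fin m => k.1 < j).image singleton)

theorem mem_S0 {m j : ℕ} {A : Finset (Fin m)} :
    A ∈ S0 m j ↔ A = ∅ ∨ ∃ k : Fin m, k.1 < j ∧ {k} = A := by simp [S0]

theorem des_S0 (m j : ℕ) : Des (S0 m j) j := by
  refine ⟨mem_S0.2 (Or.inl rfl), fun k hk => mem_S0.2 (Or.inr ⟨k, hk, rfl⟩), fun A hA k hk => ?_⟩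
  rcases mem_S0.1 hA with rfl | ⟨l, hl, rfl⟩
  · simp at hk
  · rwa [Finset.mem_singleton.1 hk]

theorem card_S0 (m j : ℕ) : (S0 m j).card ≤ j + 1 := by
  refine (Finset.card_insert_le _ _).trans (Nat.succ_le_succ (Finset.card_image_le.trans ?_))
  rw [Fin.card_filter_val_lt]
  exact min_le_right _ _

variable (K) in
/-- `v`, `z v`, `z² v` are linearly dependent -/
def Dep (z : M) (v : V) : Prop :=
  ∃ a0 a1 a2 : K, ¬ (a0 = 0 ∧ a1 = 0 ∧ a2 = 0) ∧ a0 • v + a1 • z • v + a2 • (z * z) • v = 0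

namespace Heis
variable (H : Heis K V Γ M)

include H in
theorem semi (g : Γ) (c : K) : ∃ c' : K, (c' = 0 → c = 0) ∧ ∀ u : V, g • c • u = c' • g • u := by
  by_cases hc : c = 0
  · exact ⟨0, fun _ => hc, fun u => by simp [hc]⟩
  · obtain ⟨c', h⟩ := H.κ_s g (Units.mk0 c hc)
    refine ⟨c', fun h0 => absurd h0 c'.ne_zero, fun u => ?_⟩
    rw [← H.s_smul c', ← h, ← H.κ_smul, H.s_smul, Units.val_mk0]

theorem dep_κ {g : Γ} {z : M} {v : V} (hg : g • v = v) (h : Dep K z v) : Dep K (H.κ g z) v := by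
  obtain ⟨a0, a1, a2, h1, h2⟩ := h
  obtain ⟨b0, c0, d0⟩ := H.semi g a0
  obtain ⟨b1, c1, d1⟩ := H.semi g a1
  obtain ⟨b2, c2, d2⟩ := H.semi g a2
  refine ⟨b0, b1, b2, fun h => h1 ⟨c0 h.1, c1 h.2.1, c2 h.2.2⟩, ?_⟩
  have := congrArg (g • ·) h2
  simpa only [smul_add, d0, d1, d2, H.κ_smul, hg, smul_zero, map_mul] using this

/-- the pointwise stabilizer of a subgroup of `M` -/
def Fx (B : Subgroup M) : Subgroup Γ where
  carrier := {g | ∀ x ∈ B, H.κ g x = x}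
  mul_mem' := fun {a b} ha hb x hx => by rw [map_mul, MulAut.mul_apply, hb x hx, ha x hx]
  one_mem' := fun x _ => by simp
  inv_mem' := fun {a} ha x hx => by
    conv_lhs => rw [← ha x hx]
    exact H.κ_inv' a x

theorem comm_mem_Fx {B : Subgroup M} {L : Subgroup Γ} {t : ℕ}
    (hB : ∀ g ∈ ds L t, ∀ x ∈ B, H.κ g x ∈ B)
    (h : ∀ a ∈ ds L t, ∀ b ∈ ds L t, ∀ x ∈ B, H.κ a (H.κ b x) = H.κ b (H.κ a x)) :
    ds L (t + 1) ≤ H.Fx B := by
  refine ds_succ_le fun a ha b hb x hx => ?_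
  simp only [commutatorElement_def, map_mul, MulAut.mul_apply]
  rw [h a ha b hb _ (hB _ (inv_mem ha) _ (hB _ (inv_mem hb) x hx)), H.κ_inv, H.κ_inv]

namespace PF
variable {H} {v0 : V} {hv0 : v0 ≠ 0} {r m : ℕ} (F : H.PF hv0 r m)

/-- no translations -/
def NT (S : Finset (Finset (Fin m))) : Prop :=
  ∀ t : Fin m → Kˣ, t ≠ 1 → t ^ r = 1 → ∃ A ∈ S, ∀ B ∈ S, t * F.pt B ≠ F.pt A

/-- gaps in every direction -/
def Gap (S : Finset (Finset (Fin m))) : Prop :=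
  ∀ t : Fin m → Kˣ, t ≠ 1 → t ^ r = 1 →
    ∃ A ∈ S, ∀ B ∈ S, t * F.pt B ≠ F.pt A ∧ t * t * F.pt B ≠ F.pt A

theorem Gap.nt {S : Finset (Finset (Fin m))} (h : F.Gap S) : F.NT S := fun t h1 h2 => by
  obtain ⟨A, hA, h3⟩ := h t h1 h2
  exact ⟨A, hA, fun B hB => (h3 B hB).1⟩

theorem pt_cases (A : Finset (Fin m)) (i : Fin m) : F.pt A i = 1 ∨ F.pt A i = F.ζ i := by
  rw [pt_apply]
  split_ifs <;> simp

theorem pt_ne_pow {B : Finset (Fin m)} (hB : F.pt B ≠ 1) {n : ℕ} (h1 : r.Coprime (n + 1))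
    (h2 : r.Coprime n) (C : Finset (Fin m)) : F.pt C ≠ F.pt B ^ (n + 1) := by
  intro h
  obtain ⟨i, hi⟩ := Function.ne_iff.1 hB
  have h3 := congrFun h i
  rw [Pi.pow_apply, (F.pt_cases B i).resolve_left hi] at h3
  rcases F.pt_cases C i with h4 | h4
  · exact F.ζ_ne i (eq_one_of_coprime h1 (F.ζ_pow i) (h3.symm.trans h4))
  · rw [h4, pow_succ, eq_comm, mul_eq_right] at h3
    exact F.ζ_ne i (eq_one_of_coprime h2 (F.ζ_pow i) h3)

theorem nt_odd (hr : r ≠ 2) {S : Finset (Finset (Fin m))} (h0 : ∅ ∈ S) : F.NT S := by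
  intro t h1 _
  by_cases h : ∃ B ∈ S, t * F.pt B = 1
  · obtain ⟨B, hB, h⟩ := h
    refine ⟨B, hB, fun C _ hC => F.pt_ne_pow (B := B) (fun e => h1 (by simpa [e] using h)) (n := 1)
      (Nat.coprime_two_right.2 (F.prime.odd_of_ne_two hr)) (Nat.coprime_one_right r) C ?_⟩
    rw [eq_inv_of_mul_eq_one_left h, inv_mul_eq_iff_eq_mul] at hC
    rw [hC, sq]
  · exact ⟨∅, h0, fun B hB e => h ⟨B, hB, e.trans F.pt_empty⟩⟩

theorem gap_five (hr : r ≠ 2) (h3 : r ≠ 3) {S : Finset (Finset (Fin m))} (h0 : ∅ ∈ S) :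
    F.Gap S := by
  intro t h1 ht
  have c2 : r.Coprime 2 := (Nat.coprime_primes F.prime Nat.prime_two).2 hr
  have c3 : r.Coprime 3 := (Nat.coprime_primes F.prime Nat.prime_three).2 h3
  by_cases h : ∃ B ∈ S, t * F.pt B = 1
  · obtain ⟨B, hB, h⟩ := h
    have hB1 : F.pt B ≠ 1 := fun e => h1 (by simpa [e] using h)
    obtain rfl := eq_inv_of_mul_eq_one_left h
    refine ⟨B, hB, fun C _ => ⟨fun hC => F.pt_ne_pow hB1 (n := 1) c2 (Nat.coprime_one_right r) C ?_,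
      fun hC => F.pt_ne_pow hB1 (n := 2) c3 c2 C ?_⟩⟩
    · rw [inv_mul_eq_iff_eq_mul] at hC
      rw [hC, sq]
    · rw [mul_assoc, inv_mul_eq_iff_eq_mul, inv_mul_eq_iff_eq_mul] at hC
      rw [hC, pow_succ', sq]
  by_cases h' : ∃ B ∈ S, t * t * F.pt B = 1
  · obtain ⟨B, hB, h'⟩ := h'
    have hB1 : F.pt B ≠ 1 := fun e => h1 (eq_one_of_coprime c2 ht (by simpa [e, sq] using h'))
    refine ⟨B, hB, fun C _ => ⟨fun hC => ?_,
      fun hC => F.pt_ne_pow hB1 (n := 1) c2 (Nat.coprime_one_right r) C ?_⟩⟩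
    · obtain ⟨i, hi⟩ := Function.ne_iff.1 h1
      have a1 : t i * t i * F.pt B i = 1 := congrFun h' i
      have a2 : t i * F.pt C i = F.pt B i := congrFun hC i
      have a3 : t i ^ r = 1 := congrFun ht i
      rcases F.pt_cases C i with e | e
      · rw [← a2, e, mul_one, ← sq, ← pow_succ] at a1
        exact hi (eq_one_of_coprime c3 a3 a1)
      · rcases F.pt_cases B i with e' | e'
        · rw [e', mul_one, ← sq] at a1
          exact hi (eq_one_of_coprime c2 a3 a1)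
        · rw [e, e', mul_eq_right] at a2
          exact hi a2
    · rw [eq_inv_of_mul_eq_one_left h', inv_mul_eq_iff_eq_mul] at hC
      rw [hC, sq]
  · exact ⟨∅, h0, fun B hB => ⟨fun e => h ⟨B, hB, e.trans F.pt_empty⟩,
      fun e => h' ⟨B, hB, e.trans F.pt_empty⟩⟩⟩

theorem s0_aux {j : ℕ} (hj : j ≤ m) (hj1 : j ≠ 1) {i : Fin m} (hi : i.1 < j) :
    ∃ A ∈ S0 m j, ∀ u : Fin m → Kˣ, u ≠ 1 → (∀ l, l ≠ i → u l = 1) →
      ∀ B ∈ S0 m j, u * F.pt B ≠ F.pt A := by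
  obtain ⟨k, hk, hki⟩ : ∃ k : Fin m, k.1 < j ∧ k ≠ i := by
    by_cases h : i.1 = 0
    · exact ⟨⟨1, by omega⟩, by simp; omega, fun e => by simp [← e] at h⟩
    · exact ⟨⟨0, by omega⟩, by simp; omega, fun e => by simp [← e] at h⟩
  refine ⟨{k}, (des_S0 m j).single k hk, fun u h1 h2 B hB e => h1 ?_⟩
  have h3 : u k * F.pt B k = F.pt {k} k := congrFun e k
  rw [h2 k hki, one_mul, pt_apply, pt_apply, if_pos (Finset.mem_singleton_self k)] at h3
  have h4 : k ∈ B := by_contra fun h => F.ζ_ne k (by rw [← h3, if_neg h])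
  rcases mem_S0.1 hB with rfl | ⟨l, -, rfl⟩
  · simp at h4
  · rw [← Finset.mem_singleton.1 h4] at e
    exact mul_eq_right.1 e

theorem supp_S0 {j : ℕ} {u : Fin m → Kˣ} (hu : u ≠ 1) {B : Finset (Fin m)} (hB : B ∈ S0 m j)
    (h : u * F.pt B = 1) : ∃ i : Fin m, i.1 < j ∧ ∀ l, l ≠ i → u l = 1 := by
  rcases mem_S0.1 hB with rfl | ⟨i, hi, rfl⟩
  · exact absurd (by simpa [F.pt_empty] using h) hu
  · exact ⟨i, hi, fun l hl => by simpa [pt_apply, hl] using congrFun h l⟩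

theorem nt_S0 {j : ℕ} (hj : j ≤ m) (hj1 : j ≠ 1) : F.NT (S0 m j) := by
  intro t h1 _
  by_cases h : ∃ B ∈ S0 m j, t * F.pt B = 1
  · obtain ⟨B, hB, h⟩ := h
    obtain ⟨i, hi, h2⟩ := F.supp_S0 h1 hB h
    obtain ⟨A, hA, h3⟩ := F.s0_aux hj hj1 hi
    exact ⟨A, hA, h3 t h1 h2⟩
  · exact ⟨∅, (des_S0 m j).empty, fun B hB e => h ⟨B, hB, e.trans F.pt_empty⟩⟩

theorem gap_S0 (hr : r ≠ 2) {j : ℕ} (hj : j ≤ m) (hj1 : j ≠ 1) : F.Gap (S0 m j) := by
  intro t h1 ht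
  have c2 : r.Coprime 2 := (Nat.coprime_primes F.prime Nat.prime_two).2 hr
  have h2 : t * t ≠ 1 := fun e => h1 (eq_one_of_coprime c2 ht (by rw [sq, e]))
  by_cases h : ∃ i : Fin m, i.1 < j ∧ ∀ l, l ≠ i → t l = 1
  · obtain ⟨i, hi, h⟩ := h
    obtain ⟨A, hA, h3⟩ := F.s0_aux hj hj1 hi
    exact ⟨A, hA, fun B hB => ⟨h3 t h1 h B hB, h3 _ h2 (fun l hl => by simp [h l hl]) B hB⟩⟩
  · refine ⟨∅, (des_S0 m j).empty, fun B hB => ⟨fun e => h (F.supp_S0 h1 hB (e.trans F.pt_empty)),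
      fun e => h ?_⟩⟩
    obtain ⟨i, hi, h3⟩ := F.supp_S0 h2 hB (e.trans F.pt_empty)
    exact ⟨i, hi, fun l hl => eq_one_of_coprime c2 (congrFun ht l) ((sq _).trans (h3 l hl))⟩

/-- the part of `D` orthogonal to the first `j` coordinates -/
def Bj (j : ℕ) : Subgroup M where
  carrier := {x | x ∈ H.Dr hv0 r ∧ ∀ k : Fin m, k.1 < j → H.b x (F.μ k) = 1}
  mul_mem' := fun {x y} hx hy => ⟨mul_mem hx.1 hy.1, fun k hk => by simp [hx.2 k hk, hy.2 k hk]⟩
  one_mem' := ⟨one_mem _, by simp⟩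
  inv_mem' := fun {x} hx => ⟨inv_mem hx.1, fun k hk => by simp [hx.2 k hk]⟩

theorem card_Bj_lt [Finite M] {j j' : ℕ} (h : j < j') (h' : j' ≤ m) :
    Nat.card (F.Bj j') < Nat.card (F.Bj j) := by
  refine Set.ncard_lt_ncard (s := (F.Bj j' : Set M)) (t := F.Bj j)
    ⟨fun x hx => ⟨hx.1, fun k hk => hx.2 k (hk.trans h)⟩, fun e => ?_⟩ (Set.toFinite _)
  exact F.on ⟨j, by omega⟩ ((e ⟨F.hd _, fun k hk => F.off _ _ fun e' => by
    simp [← e'] at hk⟩).2 ⟨j, by omega⟩ h)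

theorem cx_pow {z : M} (hz : z ^ r ∈ H.s.range) : F.cx z ^ r = 1 :=
  funext fun _ => H.b_pow_right hz _

/-- the frame is recovered from `v` -/
def Rec (v : V) : Prop := ∀ z : M, z ^ r = 1 → Dep K z v → F.cx z = 1

variable [Finite K] {S : Finset (Finset (Fin m))} {w v : V} (hw : ∀ x ∈ H.Dr hv0 r, x • w = w)
  (hs : v = ∑ A ∈ S, F.a A • w) (hv : v ≠ 0)
include hw hs hv

omit [Finite K] hw in
theorem y_ne (A : Finset (Fin m)) : F.a A • w ≠ 0 :=
  act_ne_zero _ fun h => hv (by simp [hs, h])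

theorem eig [Finite M] (hmax : IsMaxV M v0) {j : ℕ} (hd : Des S j) (hnt : F.NT S) :
    H.Dr hv r = F.Bj j := by
  ext x
  constructor
  · rintro ⟨h1, h2⟩
    have h3 : F.cx x = 1 := by
      by_contra h
      obtain ⟨A, hA, h4⟩ := hnt _ h (F.cx_pow (h2 ▸ one_mem _))
      have := F.P_zero hw h4
      rw [← hs, h1, hs, F.P_eq' hw hA] at this
      exact F.y_ne hs hv A this
    have h4 := H.mem_sup_Dr hv0 (H.mem_sup_of_pow hmax (F.perp_of_cx (h2 ▸ one_mem _) h3)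
      (H.pow_card_of_mem_sup hv (Subgroup.mem_sup_right h1))) (h2 ▸ one_mem _)
    obtain ⟨_, ⟨c, rfl⟩, e, he, rfl⟩ := Subgroup.mem_sup_of_normal_left.1 h4
    have h5 : ∀ A ∈ S, c * H.b e (F.a A) = 1 := by
      intro A hA
      have := F.P_eq hw hA (x := H.s c * e) (c := F.pt A) (by rw [h3, one_mul])
      rw [← hs, h1, hs, F.P_eq' hw hA, mul_smul, H.comp_smul hw _ e he, ← H.s_smul, ← mul_smul,
        ← map_mul] at this
      exact H.s_fix (F.y_ne hs hv A) this.symm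
    have h6 : c = 1 := by simpa [F.a_empty] using h5 ∅ hd.empty
    subst h6
    exact ⟨by simpa using he, fun k hk => by simpa [F.b_a] using h5 _ (hd.single k hk)⟩
  · rintro ⟨h1, h2⟩
    refine ⟨?_, h1.2⟩
    rw [hs, Finset.smul_sum]
    refine Finset.sum_congr rfl fun A hA => ?_
    rw [H.comp_smul hw _ x h1, F.b_a, Finset.prod_eq_one fun k hk => h2 k (hd.sub A hA k hk)]
    simp

theorem not_dep {z : M} {A : Finset (Fin m)} (hA : A ∈ S)
    (h : ∀ B ∈ S, F.cx z * F.pt B ≠ F.pt A ∧ F.cx z * F.cx z * F.pt B ≠ F.pt A) : ¬ Dep K z v := by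
  rintro ⟨a0, a1, a2, h1, h2⟩
  have e0 := congrArg (F.P (F.pt A)) h2
  have e1 := congrArg (F.P (F.cx z * F.pt A)) h2
  simp only [map_add, map_smul, map_zero, hs] at e0 e1
  rw [F.P_eq' hw hA, F.P_zero hw fun B hB => (h B hB).1,
    F.P_zero hw fun B hB => by rw [map_mul]; exact (h B hB).2] at e0
  have f0 : a0 = 0 := by simpa [F.y_ne hs hv A] using e0
  rw [F.P_eq hw hA rfl, F.P_zero hw (x := z * z) fun B hB e => (h B hB).1
    (by rwa [map_mul, mul_assoc, mul_right_inj] at e)] at e1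
  have f1 : a1 = 0 := by simpa [f0, act_ne_zero z (F.y_ne hs hv A)] using e1
  exact h1 ⟨f0, f1, by simpa [f0, f1, act_ne_zero (z * z) hv] using h2⟩

theorem rec_gap (h : F.Gap S) : F.Rec v := fun z hz hd => by_contra fun h1 => by
  obtain ⟨A, hA, h2⟩ := h _ h1 (F.cx_pow (hz ▸ one_mem _))
  exact F.not_dep hw hs hv hA h2 hd

omit [Finite K] hv in
theorem dep_d (i : Fin m) : Dep K (F.d i) v := by
  refine ⟨F.ζ i, -(1 + F.ζ i), 1, by simp, ?_⟩
  simp only [hs, Finset.smul_sum, ← Finset.sum_add_distrib]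
  refine Finset.sum_eq_zero fun A _ => ?_
  have h := F.cmp_a hw A i
  rw [mul_smul, h, H.lin, h]
  generalize F.a A • w = y
  rcases F.pt_cases A i with e | e <;> rw [e]
  · simp only [Units.val_one]
    module
  · module

variable [Finite M] (hmax : IsMaxV M v0) (hr : r ≠ 2)
include hmax hr

omit hv in
theorem norm_D (hrec : F.Rec v) {g : Γ} (hg : g • v = v) (i : Fin m) :
    H.κ g (F.d i) ∈ H.s.range ⊔ H.Dr hv0 r := by
  have h1 : H.κ g (F.d i) ^ r = 1 := by rw [← map_pow, (F.hd i).2, map_one]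
  exact F.mem_sup_odd hmax hr (h1 ▸ one_mem _) (hrec _ h1 (H.dep_κ hg (F.dep_d hw hs i)))

theorem perm (hrec : F.Rec v) {g : Γ} (hg : g • v = v) {A : Finset (Fin m)} (hA : A ∈ S) :
    ∃ A' ∈ S, g • F.a A • w = F.a A' • w := by
  have h1 : ∀ B, ∃ c, F.Cmp c (g • F.a B • w) := by
    intro B
    have : ∀ i, ∃ c : Kˣ, F.d i • g • F.a B • w = (c : K) • g • F.a B • w := by
      intro i
      obtain ⟨l, hl⟩ := Cmp.scal F (F.norm_D hw hs hmax hr hrec (inv_fix hg) i) (F.pt B)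
      obtain ⟨c, hc⟩ := H.κ_s g l
      refine ⟨c, ?_⟩
      rw [← H.s_smul, ← hc, ← H.κ_smul, H.s_smul, ← hl _ (F.cmp_a hw B), H.κ_smul g (H.κ _ _),
        H.κ_inv]
    choose c hc using this
    exact ⟨c, hc⟩
  choose c hc using h1
  have h2 : ∀ B, c B = c A → B = A := by
    intro B hB
    refine F.pt_inj (funext fun i => ?_)
    obtain ⟨l, hl⟩ := Cmp.scal F (F.norm_D hw hs hmax hr hrec hg i) (c A)
    obtain ⟨l', hl'⟩ := H.κ_s g⁻¹ l
    have key : ∀ B, c B = c A → F.pt B i = l' := by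
      intro B hB
      have := hl _ (hB ▸ hc B)
      rw [← H.κ_smul, F.cmp_a hw B i, ← H.s_smul l, ← H.κ_inv g (H.s l), ← H.κ_smul, hl',
        H.s_smul] at this
      exact Units.ext (smul_cancel (F.y_ne hs hv B) (smul_left_cancel g this))
    rw [key B hB, key A rfl]
  have h3 : F.P (c A) v = g • F.a A • w := by
    rw [← hg, hs, Finset.smul_sum, map_sum, Finset.sum_eq_single A
      (fun B _ hB => (F.P_spec _ (hc B)).2 fun e => hB (h2 B e)) (fun h => absurd hA h)]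
    exact (F.P_spec _ (hc A)).1 rfl
  by_contra hcon
  have h4 := F.P_zero hw (S := S) (x := 1) (c := c A) fun B hB e => hcon ⟨B, hB, by
    rw [map_one, one_mul] at e
    rw [← h3, ← e, hs, F.P_eq' hw hB]⟩
  rw [one_smul, ← hs, h3] at h4
  exact act_ne_zero g (F.y_ne hs hv A) h4

omit [Finite K] [Finite M] hmax in
theorem fixB {g : Γ} (hg : g ∈ H.A) (h : ∀ A ∈ S, g • F.a A • w = F.a A • w) {x : M}
    (hx : x ∈ H.Dr hv0 r) : x⁻¹ * H.κ g x ∈ H.Dr hv r := by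
  refine ⟨?_, H.mul_pow_odd (F.prime.odd_of_ne_two hr) (inv_mem hx).2
    (by rw [← map_pow, hx.2, map_one])⟩
  rw [hs, Finset.smul_sum]
  refine Finset.sum_congr rfl fun A hA => ?_
  rw [mul_smul, inv_smul_eq_iff]
  conv_lhs => rw [← h A hA, ← H.κ_smul, H.comp_smul hw _ x hx, H.lin_of_A hg, h A hA]
  rw [H.comp_smul hw _ x hx]

omit hw hs hv in
include F in
theorem rt_of_fix {g : Γ} (hg : g ∈ H.A) (h : g ∈ H.Fx (H.Dr hv0 r)) : H.RT g r (H.Dr hv0 r) := by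
  refine ⟨fun x hx => F.mem_sup_odd hmax hr (H.mem_Mr.1 (mul_mem (inv_mem (H.mem_Mr.2 hx))
    (H.mem_Mr.2 (map_pow (H.κ g) x r ▸ H.κ_Z g hx)))) (funext fun i => ?_), h⟩
  have := H.κ_b g (F.d i) x
  rw [hg, h _ (F.hd i)] at this
  simp [cx_apply, ← H.s_inj this]

omit hw hs hv in
include F in
theorem good_of_fix {t : ℕ} (h : ∀ g ∈ ds (stabilizer Γ v) t, g ∈ H.A → g ∈ H.Fx (H.Dr hv0 r)) :
    H.Good v r t :=
  ⟨H.Dr hv0 r, fun _ hx _ hy => H.b_eq_one_iff.1 (H.b_Dr hx hy),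
    fun g hg hA => F.rt_of_fix hmax hr hA (h g hg hA)⟩

theorem fx_of_full (hd : Des S m) {g : Γ} (hg : g ∈ H.A)
    (h : ∀ A ∈ S, g • F.a A • w = F.a A • w) : g ∈ H.Fx (H.Dr hv0 r) := by
  intro x hx
  have := F.fixB hw hs hv hr hg h hx
  rw [F.eig hw hs hv hmax hd (F.nt_odd hr hd.empty)] at this
  exact (inv_mul_eq_one.1 (F.nd this.1 fun k => this.2 k k.2)).symm

variable [Finite Γ] (hS : Group.IsSolvable Γ)
include hS

theorem ds_fix_y (hrec : F.Rec v) {n : ℕ} (hn : S.card ≤ n) (h8 : n ≤ 8) {g : Γ}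
    (hg : g ∈ ds (stabilizer Γ v) (dd n)) {A : Finset (Fin m)} (hA : A ∈ S) :
    g • F.a A • w = F.a A • w := by
  refine ds_fix hS _ (Y := (fun A => F.a A • w) '' S) (Set.toFinite _)
    ((Set.ncard_image_le S.finite_toSet).trans (by simpa using hn)) h8 (fun g hg => ?_) hg
  obtain ⟨A', h1, h2⟩ := F.perm hw hs hv hmax hr hrec hg hA
  exact ⟨A', h1, h2.symm⟩

theorem good_full (hd : Des S m) (hrec : F.Rec v) (h8 : S.card ≤ 8) : H.Good v r 4 :=
  F.good_of_fix hmax hr fun _ hg hA => F.fx_of_full hw hs hv hmax hr hd hA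
    fun _ h => F.ds_fix_y hw hs hv hmax hr hS hrec h8 le_rfl hg h

theorem good_part {j : ℕ} (hj : m = j + 1) (hd : Des S j) (hrec : F.Rec v) (h7 : S.card ≤ 7) :
    H.Good v r 4 := by
  have hC := F.eig hw hs hv hmax hd (F.nt_odd hr hd.empty)
  let i : Fin m := ⟨j, by omega⟩
  have h0 : F.d i ∈ H.Dr hv r := hC ▸ ⟨F.hd i, fun k hk => F.off _ _ fun e => by simp [← e, i] at hk⟩
  have h1 : ∀ x ∈ H.Dr hv r, ∃ n : ℕ, x = F.d i ^ n := by
    intro x hx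
    obtain ⟨n, hn⟩ := root_pow F.prime (F.on i) (F.ζ_pow i) (H.b_pow_right (F.μr i) x)
    have h2 : x⁻¹ * F.d i ^ n ∈ F.Bj j := hC ▸ mul_mem (inv_mem hx) (pow_mem h0 n)
    refine ⟨n, inv_mul_eq_one.1 (F.nd h2.1 fun k => ?_)⟩
    by_cases hk : k.1 < j
    · exact h2.2 k hk
    · obtain rfl : k = i := Fin.ext (by have := k.2; simp only [i]; omega)
      simp [hn]
  have h2 : ds (stabilizer Γ v) 1 ≤ H.Fx (H.Dr hv r) := by
    refine H.comm_mem_Fx (t := 0) (fun g hg x hx => H.κ_Dr hg hx) fun a ha b hb x hx => ?_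
    obtain ⟨n, rfl⟩ := h1 x hx
    obtain ⟨p, hp⟩ := h1 _ (H.κ_Dr ha h0)
    obtain ⟨q, hq⟩ := h1 _ (H.κ_Dr hb h0)
    simp only [map_pow, hp, hq, ← pow_mul, mul_left_comm p q]
  have h3 : ∀ g ∈ ds (stabilizer Γ v) 3, ∀ x ∈ H.Dr hv0 r, x⁻¹ * H.κ g x ∈ H.Dr hv r :=
    fun g hg x hx => F.fixB hw hs hv hr (H.mem_A _ (by decide) hg)
      (fun _ h => F.ds_fix_y hw hs hv hmax hr hS hrec h7 (by decide) hg h) hx
  have h4 : H.Dr hv r ≤ H.Dr hv0 r := fun x hx => (hC ▸ hx : x ∈ F.Bj j).1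
  refine F.good_of_fix hmax hr fun g hg _ => H.comm_mem_Fx (t := 3) (fun g hg x hx => ?_)
    (fun a ha b hb x hx => ?_) hg
  · simpa using mul_mem hx (h4 (h3 g hg x hx))
  · have a1 := h3 a ha x hx
    have a2 := h3 b hb x hx
    have b1 := h2 (ds_anti _ (by decide) ha) _ a2
    have b2 := h2 (ds_anti _ (by decide) hb) _ a1
    rw [map_mul, map_inv, inv_mul_eq_iff_eq_mul] at b1 b2
    rw [b1, b2]
    simpa [mul_assoc] using H.b_eq_one_iff.1 (H.b_Dr a1 a2)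

theorem good_frame (hd : Des S 0) (h9 : r ^ m ≤ 9) : H.Good v r 4 := by
  have hC : H.Dr hv r = H.Dr hv0 r := (F.eig hw hs hv hmax hd (F.nt_odd hr hd.empty)).trans
    (Subgroup.ext fun x => ⟨fun h => h.1, fun h => ⟨h, by simp⟩⟩)
  letI := MulAction.compHom M H.κ
  refine F.good_of_fix hmax hr fun g hg _ x hx => ?_
  by_cases h1 : x = 1
  · rw [h1, map_one]
  refine ds_fix hS _ (Y := (H.Dr hv0 r : Set M) \ {1}) (Set.toFinite _) (n := 8) ?_ le_rfl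
    (fun g hg => ⟨hC ▸ H.κ_Dr hg (hC ▸ hx), fun e => h1 ((map_eq_one_iff _ (H.κ g).injective).1 e)⟩)
    hg
  rw [Set.ncard_sdiff_singleton_of_mem (one_mem _)]
  have : (H.Dr hv0 r : Set M).ncard ≤ 9 := F.card_Dr.trans h9
  omega

end PF

end Heis

end Cfsg.Agent.SolvLin
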