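import Cfsg.Agent.SolvLin.DL5

/-!
# A vector whose stabilizer has derived length at most nine
-/

set_option autoImplicit false
set_option linter.style.haveILetI false

namespace Cfsg.Agent.SolvLin

open MulAction

universe u v

section
variable {K V Γ M : Type*} [Field K] [AddCommGroup V] [Module K V] [Group Γ]
  [DistribMulAction Γ V] [Group M] [DistribMulAction M V]

namespace Heis
variable (H : Heis K V Γ M)

theorem exists_form_all [Finite K] {v0 : V} (hv0 : v0 ≠ 0) {m : Nat.Primes → ℕ}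
    (F : ∀ r : Nat.Primes, H.PF hv0 r (m r)) (S : ∀ r, Finset (Finset (Fin (m r))))
    (hS : ∀ r, ∅ ∈ S r) : ∃ v, v ≠ 0 ∧ ∀ r, (F r).Form (S r) v := by
  let R : Finset Nat.Primes := (Nat.card Kˣ).primeFactors.subtype Nat.Prime
  obtain ⟨v, h0, h1, h2⟩ := H.exists_form hv0 F S hS R
  refine ⟨v, h0, fun r => ?_⟩
  by_cases hr : r ∈ R
  · exact h1 r hr
  haveI : IsEmpty (Fin (m r)) := ⟨fun i => hr (Finset.mem_subtype.2
    (Nat.mem_primeFactors.2 ⟨r.2, by
      haveI := Fact.mk r.2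
      rw [← orderOf_eq_prime ((F r).ζ_pow i) ((F r).ζ_ne i)]
      exact orderOf_dvd_natCard _, Nat.card_pos.ne'⟩))⟩
  refine ⟨v, h2 r hr, ?_⟩
  rw [Finset.sum_eq_single_of_mem ∅ (hS r) fun A _ hA => absurd (Finset.eq_empty_of_isEmpty A) hA,
    PF.a_empty, one_smul]

theorem inv_ker (r : ℕ) : Inv Γ (nsmulAddMonoidHom r : H.W →+ H.W).ker := fun g w hw => by
  change r • g • w = 0
  rw [smul_comm, show r • w = 0 from hw, smul_zero]

/-- the second choice -/
def j2 (r m : ℕ) : ℕ := if r = 3 ∧ m = 2 then 0 else m - 1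

namespace PF
variable {H} {v0 : V} {hv0 : v0 ≠ 0} {r m : ℕ} (F : H.PF hv0 r m) [Finite K] [Finite M] [Finite Γ]
  (hS : Group.IsSolvable Γ) (hmax : IsMaxV M v0) (hr : r ≠ 2) (h7 : m ≤ 7) {v : V} (hv : v ≠ 0)
include hS hmax hr h7 hv

theorem good_best (h : F.Form (S0 m m) v) : H.Good v r 4 := by
  obtain ⟨w, hw, hs⟩ := h
  by_cases h3 : r = 3 ∧ m = 1
  · refine H.good_of_W v fun g hg u hu => ds_fix_sub hS ⊤ _ (fun g _ => H.inv_ker r g) (n := 8)
      ((F.card_W_odd hmax hr).trans ?_) le_rfl hg hu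
    rw [h3.1, h3.2]
    decide
  refine F.good_full hw hs hv hmax hr hS (des_S0 m m) (F.rec_gap hw hs hv ?_)
    ((card_S0 m m).trans (by omega))
  by_cases h4 : r = 3
  · exact F.gap_S0 hr le_rfl fun e => h3 ⟨h4, e⟩
  · exact F.gap_five hr h4 (des_S0 m m).empty

theorem good_second (h1 : 1 ≤ m) (h : F.Form (S0 m (j2 r m)) v) : H.Good v r 4 := by
  obtain ⟨w, hw, hs⟩ := h
  by_cases h3 : r = 3 ∧ m = 2
  · rw [j2, if_pos h3] at hs
    refine F.good_frame hw hs hv hmax hr hS (des_S0 m 0) ?_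
    rw [h3.1, h3.2]
    decide
  rw [j2, if_neg h3] at hs
  refine F.good_part hw hs hv hmax hr hS (j := m - 1) (by omega) (des_S0 m _)
    (F.rec_gap hw hs hv ?_) ((card_S0 m _).trans (by omega))
  by_cases h4 : r = 3
  · exact F.gap_S0 hr (by omega) fun e => h3 ⟨h4, by omega⟩
  · exact F.gap_five hr h4 (des_S0 m _).empty

end PF

end Heis

end

theorem Heis.st9 {K V : Type*} {Γ : Type u} [Field K] [AddCommGroup V] [Module K V] [Group Γ]
    [DistribMulAction Γ V] {M : Subgroup Γ} (H : Heis K V Γ M) [Finite K] [Finite Γ] [Finite V]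
    (hS : Group.IsSolvable Γ) (hf : ∀ g : Γ, (∀ v : V, g • v = v) → g = 1) : St9 Γ V := by
  classical
  haveI := H.nontriv
  obtain ⟨v0, hmax⟩ := exists_isMaxV (M := M) (V := V)
  by_cases hx : 256 ≤ (H.perp (stabilizer M v0)).index
  · exact Or.inr (Or.inr (H.st_large hS hf hmax hx))
  choose m hm using fun r : Nat.Primes => H.exists_PF hmax.1 r.2
  let F := fun r => (hm r).some
  have h7 : ∀ r, m r ≤ 7 := fun r => by
    by_contra h
    have := (Nat.pow_le_pow_right (by decide) (not_le.1 h)).trans (F r).two_pow_le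
    omega
  let two : Nat.Primes := ⟨2, Nat.prime_two⟩
  have hW2 : ∀ t, δ (2 ^ m two * 4 * 2 ^ m two) ≤ t → ∀ g ∈ ds (⊤ : Subgroup Γ) t, ∀ w : H.W,
      2 • w = 0 → g • w = w := fun t ht g hg w hw =>
    dl_two hS H.W_cr _ (H.inv_ker 2) (fun _ hu => hu) (n := 2 ^ m two * 4 * 2 ^ m two)
      ((F two).card_W_four hmax) (by
      have := Nat.pow_le_pow_right (n := 2) (by decide) (h7 two)
      exact (Nat.mul_le_mul (Nat.mul_le_mul_right 4 this) this).trans_lt (by decide)) g (ds_anti _ ht hg) w hw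
  let Adm : (Nat.Primes → ℕ) → Prop := fun j => (j two ≤ m two ∧ j two ≠ 1) ∧
    ∀ r, r ≠ two → j r = m r ∨ (1 ≤ m r ∧ j r = Heis.j2 r (m r))
  have fam : ∀ {c : ℕ} (J : Fin c → Nat.Primes → ℕ), (∀ a, Adm (J a)) → Function.Injective J →
      ∀ t, 4 ≤ t → δ (2 ^ m two * 4 * 2 ^ m two) ≤ t → ∃ y : Fin c → V,
        (∀ a, y a ≠ 0 ∧ Sm Γ (y a) (t + 1)) ∧ ∀ a b (g : Γ), g • y a = y b → a = b := by
    intro c J hJ hinj t h4 ht
    choose y hy0 hy using fun a =>
      H.exists_form_all hmax.1 F (fun r => S0 (m r) (J a r)) fun r => (des_S0 _ _).empty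
    refine ⟨y, fun a => ⟨hy0 a, H.sm_of_good (hy0 a) (by omega) fun r hr => ?_⟩,
      fun a b g hg => hinj (funext fun r => ?_)⟩
    · by_cases h2 : r = 2
      · exact h2 ▸ H.good_of_W _ (hW2 t ht)
      refine Heis.Good.mono H ?_ h4
      have h3 := hy a ⟨r, hr⟩
      rcases (hJ a).2 ⟨r, hr⟩ (fun e => h2 (congrArg Subtype.val e)) with h | ⟨h, h'⟩
      · exact (F ⟨r, hr⟩).good_best hS hmax h2 (h7 _) (hy0 a) (by rwa [h] at h3)
      · exact (F ⟨r, hr⟩).good_second hS hmax h2 (h7 _) (hy0 a) h (by rwa [h'] at h3)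
    · have key : ∀ a, J a r ≤ m r ∧ H.Dr (hy0 a) r = (F r).Bj (J a r) := by
        intro a
        obtain ⟨w, hw, hs⟩ := hy a r
        by_cases h2 : r = two
        · have := (hJ a).1
          rw [← h2] at this
          exact ⟨this.1, (F r).eig hw hs _ hmax (des_S0 _ _) ((F r).nt_S0 this.1 this.2)⟩
        · refine ⟨?_, (F r).eig hw hs _ hmax (des_S0 _ _)
            ((F r).nt_odd (fun e => h2 (Subtype.ext e)) (des_S0 _ _).empty)⟩
          rcases (hJ a).2 r h2 with h | ⟨-, h⟩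
          · exact h.le
          · rw [h, Heis.j2]
            split_ifs <;> omega
      have h1 := H.card_Dr_eq (hy0 a) (hy0 b) r hg
      rw [(key a).2, (key b).2] at h1
      rcases lt_trichotomy (J a r) (J b r) with h | h | h
      · exact absurd h1 ((F r).card_Bj_lt h (key b).1).ne'
      · exact h
      · exact absurd h1 ((F r).card_Bj_lt h (key a).1).ne
  have fam2 : ∀ {c : ℕ} (val : Fin c → ℕ), (∀ a, val a ≤ m two ∧ val a ≠ 1) →
      Function.Injective val → ∀ t, 4 ≤ t → δ (2 ^ m two * 4 * 2 ^ m two) ≤ t → ∃ y : Fin c → V,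
        (∀ a, y a ≠ 0 ∧ Sm Γ (y a) (t + 1)) ∧ ∀ a b (g : Γ), g • y a = y b → a = b :=
    fun val h1 h2 => fam (fun a => Function.update m two (val a))
      (fun a => ⟨by simpa using h1 a, fun r hr => Or.inl (Function.update_of_ne hr _ _)⟩)
      fun a b h => h2 (by simpa using congrFun h two)
  have h2 := h7 two
  by_cases hB : 5 ≤ m two
  · obtain ⟨y, h3, h4⟩ := fam2 ![0, 2, 3, 4, 5] (fun a => by fin_cases a <;> simp <;> omega)
      (by decide) 7 (by decide) (by unfold δ; split_ifs <;> omega)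
    exact Or.inr (Or.inr ⟨y, fun a => (h3 a).2.mono (by fin_cases a <;> simp), h4⟩)
  have h6 : δ (2 ^ m two * 4 * 2 ^ m two) ≤ 6 := by
    generalize m two = k at *
    interval_cases k <;> decide
  by_cases hC : 3 ≤ m two
  · obtain ⟨y, h3, h4⟩ := fam2 ![0, 2, 3] (fun a => by fin_cases a <;> simp <;> omega)
      (by decide) 6 (by decide) h6
    exact Or.inr (Or.inl ⟨y, fun a => (h3 a).2.mono (by fin_cases a <;> simp), h4⟩)
  have h3 : m two ≠ 2 → δ (2 ^ m two * 4 * 2 ^ m two) ≤ 3 := by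
    generalize m two = k at *
    interval_cases k <;> decide
  by_cases hodd : ∃ r, r ≠ two ∧ 1 ≤ m r
  · obtain ⟨r, hr, h1⟩ := hodd
    let j0 := Function.update m two 0
    let j1 := Function.update j0 r (Heis.j2 r (m r))
    have a0 : Adm j0 := ⟨by simp [j0], fun r hr => Or.inl (Function.update_of_ne hr _ _)⟩
    have a1 : Adm j1 := ⟨by simp [j1, j0, hr.symm], fun r' hr' => by
      by_cases e : r' = r
      · subst e
        exact Or.inr ⟨h1, by simp [j1]⟩
      · exact Or.inl (by simp [j1, j0, e, hr'])⟩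
    have b : j0 ≠ j1 := fun e => by
      have := congrFun e r
      simp only [j1, j0, Function.update_self, Function.update_of_ne hr, Heis.j2] at this
      split_ifs at this <;> omega
    by_cases hD : m two = 2
    · have c : ∀ j : Nat.Primes → ℕ, j two = 0 → j ≠ Function.update m two 2 := fun j hj e => by
        simp [e] at hj
      have c0 := c j0 (by simp [j0])
      have c1 := c j1 (by simp [j1, j0, hr.symm])
      obtain ⟨y, h3, h4⟩ := fam ![j0, j1, Function.update m two 2] (fun a => by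
        fin_cases a
        exacts [a0, a1, ⟨by simp [hD], fun r hr => Or.inl (Function.update_of_ne hr _ _)⟩])
        (fun a a' h => by
          fin_cases a <;> fin_cases a' <;> first | rfl | exact absurd h ‹_› | exact absurd h.symm ‹_›)
        6 (by decide) h6
      exact Or.inr (Or.inl ⟨y, fun a => (h3 a).2.mono (by fin_cases a <;> simp), h4⟩)
    · obtain ⟨y, h3, h4⟩ := fam ![j0, j1] (fun a => by fin_cases a; exacts [a0, a1])
        (fun a a' h => by
          fin_cases a <;> fin_cases a' <;> first | rfl | exact absurd h ‹_› | exact absurd h.symm ‹_›)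
        4 le_rfl ((h3 hD).trans (by decide))
      exact Or.inl ⟨y, fun a => (h3 a).2.mono (by fin_cases a <;> simp), h4⟩
  have hz : ∀ t, 1 ≤ t → δ (2 ^ m two * 4 * 2 ^ m two) ≤ t → Sm Γ (0 : V) (t + 2) := by
    intro t h1 ht g hg
    refine mem_trv.1 (H.top_trv h1 (fun g hg w => ?_) (ds_mono le_top _ hg))
    obtain ⟨x, rfl⟩ := H.wm_surj w
    refine H.gen_primes (P := H.msub (fx H.W g)) (fun r hr x hx => ?_) x
    by_cases e : r = 2
    · exact hW2 t ht g hg _ (H.wm_eq_zero.2 (e ▸ hx))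
    · have h4 := (F ⟨r, hr⟩).card_W_odd hmax e
      have h5 : m ⟨r, hr⟩ = 0 := by
        by_contra h5
        exact hodd ⟨⟨r, hr⟩, fun e' => e (congrArg Subtype.val e'), by omega⟩
      rw [h5, pow_zero, mul_one, mul_one, AddSubgroup.card_le_one_iff_eq_bot] at h4
      have h6 : H.wm x ∈ (⊥ : AddSubgroup H.W) := h4 ▸ H.wm_eq_zero.2 hx
      exact H.mem_msub.2 (AddSubgroup.mem_bot.1 h6 ▸ zero_mem _)
  by_cases hD : m two = 2
  · obtain ⟨y, h3, h4⟩ := fam2 ![0, 2] (fun a => by fin_cases a <;> simp [hD]) (by decide) 6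
      (by decide) h6
    refine Or.inr (Or.inl ⟨![y 0, y 1, 0], fun a => ?_, fun a b g hg => ?_⟩)
    · fin_cases a
      exacts [(h3 0).2, (h3 1).2, hz 6 (by decide) h6]
    · fin_cases a <;> fin_cases b <;> first
        | rfl
        | exact absurd (h4 _ _ g hg) (by decide)
        | exact absurd hg (act_ne_zero g (h3 _).1)
        | exact absurd ((smul_zero g).symm.trans hg).symm (h3 _).1
  · obtain ⟨y, h4, -⟩ := fam2 ![0] (by simp) (by decide) 4 le_rfl ((h3 hD).trans (by decide))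
    refine Or.inl ⟨![y 0, 0], fun a => ?_, fun a b g hg => ?_⟩
    · fin_cases a
      exacts [(h4 0).2, hz 3 (by decide) (h3 hD)]
    · fin_cases a <;> fin_cases b <;> first
        | rfl
        | exact absurd hg (act_ne_zero g (h4 _).1)
        | exact absurd ((smul_zero g).symm.trans hg).symm (h4 _).1

theorem irr_st9 (n : ℕ) : ∀ (G : Type u) (V : Type v) [Group G] [Finite G] [AddCommGroup V]
    [Finite V] [DistribMulAction G V], Nat.card V = n → Group.IsSolvable G → Irr G V → St9 G V := by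
  induction n using Nat.strong_induction_on with | _ n ih => ?_
  intro G V _ _ _ _ _ hn hG hirr
  rcases imprim_or_setup hG hirr with ⟨⟨I⟩⟩ | ⟨K, _, _, _, Γ, _, _, _, S, f, hf, -⟩
  · letI := subAct I.e.range I.inv
    exact I.st9 hG hirr (ih _ (hn ▸ I.card_range_lt) _ _ rfl inferInstance (I.irr hirr))
  · obtain ⟨M, H, -⟩ := S.exists_heis
    exact (H.st9 S.solv S.faithful).imp (St.of_hom f hf) (Or.imp (St.of_hom f hf) (St.of_hom f hf))

theorem cr_sm_nine {G V : Type*} [Group G] [Finite G] [AddCommGroup V] [Finite V]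
    [DistribMulAction G V] (hG : Group.IsSolvable G) (hcr : CR G V) : ∃ v : V, Sm G v 9 :=
  sm_of_cr hcr fun U hU hirr => by
    letI := subAct U hU
    rcases irr_st9 _ G U rfl hG hirr with ⟨t, h, -⟩ | ⟨t, h, -⟩ | ⟨t, h, -⟩ <;>
      exact ⟨t 0, (h 0).mono (by simp)⟩

end Cfsg.Agent.SolvLin
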