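import Cfsg.Agent.SolvLin.Du
import Cfsg.Agent.Char.TwoDegrees
import Cfsg.Agent.Grp.Fitting
import Cfsg.Agent.Grp.MinNormal

/-!
# Character degrees and orbits on dual modules
-/

set_option autoImplicit false
set_option linter.style.haveILetI false
open scoped commutatorElement IsMulCommutative

namespace Cfsg.Agent.SolvLin

open MulAction Subgroup Cfsg.Agent.Char

variable {G : Type*} [Group G] [Finite G]

theorem relIndex_dvd_index_of_normal' (S A : Subgroup G) [A.Normal] : S.relIndex A ∣ S.index := by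
  have h1 := relIndex_mul_relIndex (S ⊓ A) S (S ⊔ A) inf_le_left le_sup_left
  have h2 := relIndex_mul_relIndex (S ⊓ A) A (S ⊔ A) inf_le_right le_sup_right
  rw [inf_relIndex_left] at h1
  rw [inf_relIndex_right, relIndex_sup_right, ← h1, mul_comm] at h2
  rw [mul_left_cancel₀ FiniteIndex.index_ne_zero h2]
  exact relIndex_dvd_index_of_le le_sup_left

theorem exists_deg_dvd (N : Subgroup G) [N.Normal] (θ : IrrCharacter N) : ∃ χ : IrrCharacter G,
    (inertia N θ.1).index * charDegree θ.1 ∣ charDegree χ.1 := by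
  haveI := Fintype.ofFinite G
  haveI := Fintype.ofFinite N
  obtain ⟨χ, hχ, h⟩ := exists_irr_over N θ.2
  obtain ⟨e, he⟩ := (hχ.isCharacter.restrict N).exists_nat_inner θ.2.isCharacter
  refine ⟨⟨χ, hχ⟩, e, charDegree_eq_of_one_eq ?_⟩
  change χ 1 = _
  rw [clifford_degree N hχ θ.2 h, he, ← coe_charDegree_of_isCharacter θ.2.isCharacter]
  push_cast
  ring

omit [Finite G] in
theorem derived_pi {ι : Type*} {X : ι → Type*} [∀ i, Group (X i)] {k : ℕ}
    (h : ∀ i, derivedSeries (X i) k = ⊥) : derivedSeries (∀ i, X i) k = ⊥ := by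
  have key : ∀ k, derivedSeries (∀ i, X i) k ≤ pi Set.univ fun i => derivedSeries (X i) k := by
    intro k
    induction k with
    | zero => exact fun _ _ _ _ => trivial
    | succ k ih => exact (commutator_mono ih ih).trans (commutator_pi_pi_le _ _)
  exact eq_bot_iff.2 fun x hx => funext fun i => mem_bot.1 (h i ▸ key k hx i trivial)

theorem derived_of_sylow [Group.IsNilpotent G] {k : ℕ}
    (h : ∀ (p : ℕ) [Fact p.Prime] (P : Sylow p G), derivedSeries P k = ⊥) :
    derivedSeries G k = ⊥ := by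
  obtain ⟨e⟩ := ((Group.isNilpotent_of_finite_tfae (G := G)).out 0 4).1 ‹_›
  haveI := fun p : (Nat.card G).primeFactors => Fact.mk (Nat.prime_of_mem_primeFactors p.2)
  rw [← map_derivedSeries_eq (f := e.toMonoidHom) e.surjective,
    derived_pi fun p : (Nat.card G).primeFactors => derived_pi fun P => h p P, Subgroup.map_bot]

theorem comm_mem_of_index_dvd {p : ℕ} [hp : Fact p.Prime] (hG : IsPGroup p G) {S : Subgroup G}
    (h : S.index ∣ p) (a b : G) : ⁅a, b⁆ ∈ S := by
  rcases (Nat.dvd_prime hp.out).1 h with e | e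
  · rw [index_eq_one.1 e]
    trivial
  obtain ⟨k, hk⟩ := hG.exists_card_eq
  haveI : S.Normal := normal_of_index_eq_minFac_card (by
    rw [hk, hp.out.pow_minFac, e]
    rintro rfl
    exact hp.out.one_lt.ne' (Nat.dvd_one.1 (e ▸ (pow_zero p ▸ hk) ▸ S.index_dvd_card)))
  haveI := isCyclic_of_prime_card (α := G ⧸ S) e
  rw [← QuotientGroup.eq_one_iff, ← QuotientGroup.mk'_apply, map_commutatorElement]
  exact commutatorElement_eq_one_iff_mul_comm.2 (mul_comm' _ _)

omit [Finite G] in
theorem commutator_le_centralizer (F : Subgroup G) [F.Normal] [IsCyclic F] :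
    commutator G ≤ centralizer (F : Set G) := by
  refine commutator_le.2 fun a _ b _ => conj_triv.1 fun x => ?_
  rw [map_commutatorElement, commutatorElement_eq_one_iff_mul_comm.2
    ((IsCyclic.mulAutMulEquiv F).injective (by rw [map_mul, map_mul, mul_comm]))]
  rfl

theorem metabelian_of_squarefree {V : Type*} [AddCommGroup V] [Finite V] [DistribMulAction G V]
    [Group.IsSolvable G] (hirr : Irr G V) (hf : ∀ g : G, (∀ v : V, g • v = v) → g = 1)
    (h : ∀ v : V, Squarefree (stabilizer G v).index) : derivedSeries G 2 = ⊥ := by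
  have h1 : ∀ (A : Subgroup G) [A.Normal] (v : V), Squarefree ((stabilizer G v).relIndex A) :=
    fun A _ v => (h v).squarefree_of_dvd (relIndex_dvd_index_of_normal' _ A)
  let F := fittingSubgroup G
  have h2 : derivedSeries F 1 = ⊥ := derived_of_sylow fun p _ P => eq_bot_iff.2
    (commutator_le.2 fun a _ b _ => Subtype.ext (Subtype.ext (hf _ fun v => by
      have h3 := Grp.le_pCore_of_le_fitting (P.isPGroup'.map F.subtype) (map_subtype_le _)
      obtain ⟨k, hk⟩ := (Grp.pCore_isPGroup p G).exists_card_eq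
      exact comm_mem_of_index_dvd (Grp.pCore_isPGroup p G)
        ((h1 _ v).isRadical k p (hk ▸ relIndex_dvd_card _ _))
        ⟨_, h3 ⟨a, a.2, rfl⟩⟩ ⟨_, h3 ⟨b, b.2, rfl⟩⟩)))
  have h3 : ∀ a ∈ F, ∀ b ∈ F, a * b = b * a := fun a ha b hb => by
    have : ⁅(⟨a, ha⟩ : F), (⟨b, hb⟩ : F)⁆ ∈ derivedSeries F 1 :=
      commutator_mem_commutator (mem_top _) (mem_top _)
    rw [h2, mem_bot, commutatorElement_eq_one_iff_mul_comm] at this
    exact congrArg Subtype.val this
  obtain ⟨v, hv⟩ := reg_of_comm hirr F fun a ha b hb v => by rw [← mul_smul, h3 a ha b hb, mul_smul]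
  have h4 := h1 F v
  rw [relIndex, show (stabilizer G v).subgroupOf F = ⊥ from
    eq_bot_iff.2 fun x hx => Subtype.ext (hf _ (hv _ x.2 hx)), index_bot] at h4
  haveI := IsZGroup.of_squarefree h4
  have h5 := (commutator_le_centralizer F).trans (Grp.centralizer_fitting_le G)
  exact eq_bot_iff.2 (commutator_le.2 fun a ha b hb =>
    commutatorElement_eq_one_iff_mul_comm.2 (h3 a (h5 ha) b (h5 hb)))

/-- the faithful dual module of a chief factor -/
theorem exists_dual {N : Subgroup G} [N.Normal] [IsMulCommutative N] (h0 : N ≠ ⊥)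
    (hmin : ∀ K : Subgroup G, K.Normal → K ≤ N → K = ⊥ ∨ K = N) :
    ∃ (_ : Finite (Du N)) (_ : DistribMulAction (G ⧸ centralizer (N : Set G)) (Du N)),
      Nat.card (Du N) = Nat.card N ∧ Irr (G ⧸ centralizer (N : Set G)) (Du N) ∧
      (∀ g : G ⧸ centralizer (N : Set G), (∀ v : Du N, g • v = v) → g = 1) ∧
      ∀ v : Du N, (stabilizer (G ⧸ centralizer (N : Set G)) v).comap (QuotientGroup.mk' _) =
        inertia N fun n => (v.toMul n : ℂ) := by
  letI : CommGroup N := { (inferInstance : Group N) with mul_comm := mul_comm' }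
  haveI := (nontrivial_iff_ne_bot N).2 h0
  let ρ : G ⧸ centralizer (N : Set G) →* MulAut N := QuotientGroup.lift _ MulAut.conjNormal
    fun x hx => MulEquiv.ext (conj_triv.2 hx)
  refine ⟨inferInstance, duAct ρ, du_card, du_irr ρ fun K hK => conj_irr hmin K fun g => hK g,
    fun g hg => ?_, fun v => ?_⟩
  · obtain ⟨g, rfl⟩ := QuotientGroup.mk_surjective g
    exact (QuotientGroup.eq_one_iff g).2 (conj_triv.1 (du_triv ρ hg))
  · ext g
    rw [← (inertia N _).inv_mem_iff, mem_inertia']
    exact ⟨fun h n => congrArg (fun ψ : Du N => (ψ.toMul n : ℂ)) h,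
      fun h => MonoidHom.ext fun n => Units.ext (h n)⟩

theorem exists_deg_dvd_index {N : Subgroup G} [N.Normal] {Q : Type*} [Group Q] {f : G →* Q}
    (hf : Function.Surjective f) {S : Subgroup Q} {v : N →* ℂˣ}
    (h : S.comap f = inertia N fun n => (v n : ℂ)) :
    ∃ χ : IrrCharacter G, S.index ∣ charDegree χ.1 := by
  obtain ⟨χ, hχ⟩ := exists_deg_dvd N ⟨_, isIrrCharacter_hom v⟩
  exact ⟨χ, index_comap_of_surjective S hf ▸ h ▸ (dvd_mul_right _ _).trans hχ⟩

universe u in
theorem nilpotent_of_squarefree (n : ℕ) : ∀ (G : Type u) [Group G] [Finite G] [Group.IsSolvable G],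
    Nat.card G = n → (∀ χ : IrrCharacter G, Squarefree (charDegree χ.1)) →
    Group.IsNilpotent (derivedSeries G 2) := by
  induction n using Nat.strong_induction_on with | _ n ih
  intro G _ _ _ hn h
  cases subsingleton_or_nontrivial G
  · infer_instance
  obtain ⟨p, V, -, _, h0, _, -, -, hmin⟩ := Grp.exists_minNormal_elementaryAbelian G
  obtain ⟨_, _, -, hirr, hf, hst⟩ := exists_dual h0 hmin
  have h1 := metabelian_of_squarefree hirr hf fun v => by
    obtain ⟨χ, hχ⟩ := exists_deg_dvd_index (QuotientGroup.mk'_surjective _) (hst v)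
    exact (h χ).squarefree_of_dvd hχ
  rw [← map_derivedSeries_eq (QuotientGroup.mk'_surjective _), Subgroup.map_eq_bot_iff,
    QuotientGroup.ker_mk'] at h1
  haveI := ih _ (hn ▸ Grp.card_quotient_lt V h0) (G ⧸ V) rfl fun ψ => by
    obtain ⟨χ, hχ⟩ := exists_irr_charDegree_eq_of_surjective _ (QuotientGroup.mk'_surjective V) ψ
    exact hχ ▸ h χ
  refine Subgroup.isNilpotent_of_ker_le_center
    (((QuotientGroup.mk' V).comp (derivedSeries G 2).subtype).codRestrict (derivedSeries (G ⧸ V) 2)
    fun x => map_derivedSeries_le_derivedSeries (QuotientGroup.mk' V) 2 ⟨x, x.2, rfl⟩)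
    fun x hx => mem_center_iff.2 fun y => Subtype.ext ?_
  exact (h1 y.2 x ((QuotientGroup.eq_one_iff _).1 (congrArg Subtype.val hx))).symm

theorem metabelian_of_nilpotent_squarefree [Group.IsNilpotent G]
    (h : ∀ χ : IrrCharacter G, Squarefree (charDegree χ.1)) : derivedSeries G 2 = ⊥ :=
  derived_of_sylow fun p hp P => by
    haveI := P.isPGroup'.isNilpotent
    refine derivedSeries_eq_bot_of_isNilpotent ((Set.ncard_le_ncard (t := {1, p}) ?_).trans
      ((Set.ncard_insert_le _ _).trans (by simp)))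
    rintro _ ⟨θ, rfl⟩
    obtain ⟨χ, hχ⟩ := exists_deg_dvd (P : Subgroup G) θ
    obtain ⟨k, hk⟩ := P.isPGroup'.exists_card_eq
    exact (Nat.dvd_prime hp.out).1 (((h χ).squarefree_of_dvd ((dvd_mul_left _ _).trans hχ)).isRadical
      k p (hk ▸ charDegree_irr_dvd_card θ))

end Cfsg.Agent.SolvLin
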